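import Cfsg.Agent.H6.PG

set_option autoImplicit false
set_option maxRecDepth 100000
set_option Elab.async false

namespace Cfsg.H6.G23

def R : List (List ℕ) := [[1,1,1], [3,3,3], [5,5,5], [7,7,7], [1,3,1,4,2,4], [5,7,5,8,6,8], [2,6,1,5], [2,8,1,7], [4,6,3,5], [4,8,3,7], [1,3,1,3,1,3,8,6,8,6,8,6], [9,1,9,1], [9,3,9,3], [9,5,9,5], [9,7,9,7], [10,10,10], [1,3,1,6,7,10,1,3,1,6,7,10], [11,9,10,7,6,3,2], [11,1,3,1,10,9,6,7,4,1], [11,1,4,5,8,10,9,6,8,6], [12,10,6,2,11], [14,14,14], [15,2,14,1], [15,6,14,5], [15,9,14,9], [14,1,4,1,4,14,1,4,1,4], [15,13,7,12], [9,9]]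

def X : List (List ℕ) := [[1], [3], [5], [7], [9], [10], [12], [14]]

/-- The presented group. -/
abbrev Grp : Type := PG 18687320815856392053795373060102095360 R

def ev : ℕ → Grp := pgEv 18687320815856392053795373060102095360 R

theorem hev : Good ev 18687320815856392053795373060102095360 := pg_good _ _

theorem hR : Rels ev R := pg_rels _ _

theorem hX : gen ev X = ⊤ := pg_gen (m := 16) (by decide +kernel)

theorem lift {G : Type*} [Group G] {ev' : ℕ → G} (h : Good ev' 18687320815856392053795373060102095360) (h' : Rels ev' R) :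
    ∃ φ : Grp →* G, ∀ l, φ (ev l) = ev' l := pg_lift h h'

end Cfsg.H6.G23
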