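import Cfsg.Agent.H6.G23.Rep
import Cfsg.Agent.H6.G23.C1.Main
import Cfsg.Agent.H6.G23.C2.Main
import Cfsg.Agent.H6.G23.C3.Main

set_option autoImplicit false
set_option maxRecDepth 100000
set_option Elab.async false

namespace Cfsg.H6.G23

theorem cover : Cover (gen ev Ws) ⊤ 364 := hX ▸ C3.cover hev hR

theorem ub : UB (⊤ : Subgroup Grp) 4245696 :=
  (UB.bot.cover (C2.cover hev hR)).cover (hX ▸ C1.cover hev hR)

def I : List Ivl := [(1, 13, [7,5,12]), (13, 121, [12]), (121, 364, [7])]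

theorem act : ∃ φ : Grp →* Equiv.Perm ℕ, IsAct φ ev img 364 16 := by
  obtain ⟨ψ, hψ⟩ := lift rep.1 rep.2.1
  exact ⟨_, rep.2.2.comp ψ hψ⟩

/-- The permutation representation. -/
noncomputable def φ : Grp →* Equiv.Perm ℕ := act.choose

theorem hφ : IsAct φ ev img 364 16 := act.choose_spec

theorem prim : Prim φ ev (gen ev Ws) 364 I :=
  prim_sound hφ cover (List.forall_mem_cons.mpr ⟨iv0 hφ, (List.forall_mem_cons.mpr ⟨iv1 hφ, (List.forall_mem_cons.mpr ⟨iv2 hφ, (by simp)⟩)⟩)⟩) (by decide +kernel)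

theorem coatom : IsCoatom (gen ev Ws) :=
  prim.isCoatom hφ hX (C := [[], [0,2,0,2,1,4,2,0,3], [0,2,0,2,1,1,0,2,1], [0,2,1,0,2,1], [0,4,0,0], [0,0,2,3,0,0], [0], [0,4,2,1,4,2,4,4,2], [0,3,4,2,1,4,0,4,4]]) (by decide +kernel)

def lW0 : List (List ℕ) := [[nat_lit 9]]

theorem l0 : lvlChk img 364 16 [1,0] (11, lW0, unp 1 (nat_lit 0xb00)) = true := by
  decide +kernel

def lW1 : List (List ℕ) := [[nat_lit 1], [nat_lit 14]]

theorem l1 : lvlChk img 364 16 [11,1,0] (2, lW1, unp 8 (nat_lit 0x6000000080100000a010000080000000401000004000000020100000200)) = true := by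
  decide +kernel

def lW2 : List (List ℕ) := [[nat_lit 3, nat_lit 9, nat_lit 1, nat_lit 4]]

theorem l2 : lvlChk img 364 16 [2,11,1,0] (3, lW2, unp 1 (nat_lit 0x300)) = true := by
  decide +kernel

def lW3 : List (List ℕ) := [[nat_lit 5], [nat_lit 1, nat_lit 14, nat_lit 3, nat_lit 14, nat_lit 3, nat_lit 14, nat_lit 3, nat_lit 2]]

theorem l3 : lvlChk img 364 16 [3,2,11,1,0] (13, lW3, unp 8 (nat_lit 0x5b0000006e000000580100006c0000003f0000000d010000150000000d00)) = true := by
  decide +kernel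

def lW4 : List (List ℕ) := [[nat_lit 3, nat_lit 5, nat_lit 14, nat_lit 3, nat_lit 14, nat_lit 3, nat_lit 14]]

theorem l4 : lvlChk img 364 16 [13,3,2,11,1,0] (14, lW4, unp 2 (nat_lit 0x760000000e00)) = true := by
  decide +kernel

theorem finite : Finite Grp := ub.top.1

def bs : List ℕ := [14,13,3,2,11,1,0]

theorem lb : LBn φ ⊤ 364 bs 4245696 := by
  have := finite
  exact LBn.cast ((((((prim.lb2 (e := I.head (by decide)) (List.head_mem _)).stepT hφ l0).stepT hφ l1).stepT hφ l2).stepT hφ l3).stepT hφ l4) (by decide +kernel)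

theorem main : Nat.card Grp = 4245696 ∧ fixS φ bs = ⊥ ∧ Oracle ev img 16 bs := by
  have := finite
  exact lb.oracle hφ ub.top.2

theorem normal (N : Subgroup Grp) [N.Normal] (hN : N ≠ ⊥) :
    ∀ t ∈ ([[1], [3], [5], [7], [9], [10], [12], [14]] : List (List ℕ)), evL ev t ∈ N := by
  have := finite
  exact prim.normal_contains hev coatom lb.2 main.2.1 main.2.2 (p := 13) (k := 1) (j := 1) (by norm_num)
    main.1 (x := [13,2]) (St := [([13,2], [], [10], 8, 3), ([10], [], [1], 7, 3), ([10], [], [7], 7, 3), ([10], [], [14], 7, 3), ([14], [], [12], 13, 3), ([12], [], [9], 3, 2), ([9], [], [3], 2, 3), ([9], [], [5], 2, 3)]) (by decide +kernel) N hN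

theorem simple : IsSimpleGroup Grp := by
  have := prim.nontrivial
  exact isSimple_of_contains hX normal

end Cfsg.H6.G23
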